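import Cfsg.Agent.H607.TW.Defs2

/-!
# S3694, T16: the counting argument for an outer involution (helper87)

`y ∈ C₂` an involution with `⟨y⟩` normal in `C`, `E = O_2(A) ∩ N` minimal normal in `A`, self-centralizing in `N` and of
exponent two. Then `|A| ≤ d! 2^(d-1) |G : N|`.
-/

set_option autoImplicit false

namespace Cfsg.Agent.H87.TW

open Subgroup Cfsg.Agent.H607.TW

universe u

variable {G : Type u} [Group G] [Finite G]

theorem card_sup_zpowers_le {a : G} (h2 : a * a = 1) {K : Subgroup G} (hc : ∀ b ∈ K, a * b = b * a) :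
    Nat.card ↥(zpowers a ⊔ K) ≤ Nat.card ↥K * 2 := by
  let f : ↥K × Bool → G := fun p => if p.2 then (p.1 : G) else a * p.1
  let H : Subgroup G :=
    { carrier := {x | x ∈ K ∨ ∃ b ∈ K, x = a * b}
      one_mem' := Or.inl K.one_mem
      mul_mem' := by
        rintro x y (hx | ⟨b, hb, rfl⟩) (hy | ⟨c, hc', rfl⟩)
        · exact Or.inl (K.mul_mem hx hy)
        · exact Or.inr ⟨x * c, K.mul_mem hx hc', by rw [← mul_assoc, ← hc x hx, mul_assoc]⟩
        · exact Or.inr ⟨b * y, K.mul_mem hb hy, by rw [mul_assoc]⟩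
        · refine Or.inl ?_
          have : a * b * (a * c) = b * c := by
            calc a * b * (a * c) = b * a * (a * c) := by rw [hc b hb]
              _ = b * (a * a) * c := by simp only [mul_assoc]
              _ = b * c := by rw [h2, mul_one]
          rw [this]
          exact K.mul_mem hb hc'
      inv_mem' := by
        rintro x (hx | ⟨b, hb, rfl⟩)
        · exact Or.inl (K.inv_mem hx)
        · refine Or.inr ⟨b⁻¹, K.inv_mem hb, ?_⟩
          have ha : a⁻¹ = a := inv_eq_of_mul_eq_one_left h2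
          rw [mul_inv_rev, ha, hc b⁻¹ (K.inv_mem hb)] }
  have hH : zpowers a ⊔ K ≤ H := by
    apply sup_le
    · rw [zpowers_le]
      exact Or.inr ⟨1, K.one_mem, by rw [mul_one]⟩
    · exact fun x hx => Or.inl hx
  have h1 : ∀ x : ↥(zpowers a ⊔ K), ∃ p : ↥K × Bool, f p = x := by
    intro x
    rcases hH x.2 with h | ⟨b, hb, h⟩
    · exact ⟨(⟨x, h⟩, true), rfl⟩
    · exact ⟨(⟨b, hb⟩, false), h.symm⟩
  choose k hk using h1
  have h3 : Nat.card ↥(zpowers a ⊔ K) ≤ Nat.card (↥K × Bool) := by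
    apply Nat.card_le_card_of_injective k
    intro x y hxy
    apply Subtype.ext
    rw [← hk, ← hk, hxy]
  rwa [Nat.card_prod, Nat.card_eq_fintype_card (α := Bool), Fintype.card_bool] at h3

theorem card_closure_le (A : Finset G) (h2 : ∀ a ∈ A, a * a = 1) (hc : ∀ a ∈ A, ∀ b ∈ A, a * b = b * a) :
    Nat.card (closure (A : Set G)) ≤ 2 ^ A.card := by
  classical
  induction A using Finset.induction_on with
  | empty => simp
  | insert a A ha ih =>
    have h1 := ih (fun b hb => h2 b (Finset.mem_insert_of_mem hb)) fun b hb c hc' =>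
      hc b (Finset.mem_insert_of_mem hb) c (Finset.mem_insert_of_mem hc')
    rw [Finset.coe_insert, Set.insert_eq, Subgroup.closure_union, Finset.card_insert_of_notMem ha, pow_succ,
      ← zpowers_eq_closure]
    have h3 : ∀ b ∈ closure (A : Set G), a * b = b * a := by
      intro b hb
      have h4 : closure (A : Set G) ≤ centralizer {a} := (closure_le _).2 fun b hb =>
        mem_centralizer_singleton_iff.2 (hc b (Finset.mem_insert_of_mem hb) a (Finset.mem_insert_self a A))
      exact (mem_centralizer_singleton_iff.1 (h4 hb)).symm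
    have h5 := card_sup_zpowers_le (h2 a (Finset.mem_insert_self a A)) h3
    omega

omit [Finite G] in
/-- `y` an involution, `⟨y⟩` normalised by `C`: `C` centralises `y`. -/
theorem comm_of_norm {C : Subgroup G} {y : G} (hy2 : y * y = 1) (hy1 : y ≠ 1)
    (hn : C ≤ normalizer (zpowers y : Set G)) {c : G} (hc : c ∈ C) : c * y * c⁻¹ = y := by
  have h1 := conj_mem_of_norm hn hc (mem_zpowers y)
  obtain ⟨k, hk⟩ := mem_zpowers_iff.mp h1
  rcases Int.even_or_odd' k with ⟨m, rfl | rfl⟩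
  · exfalso
    apply hy1
    rw [zpow_mul, zpow_two, hy2, one_zpow] at hk
    have h2 : c * y = c := by
      rw [← mul_one (c * y), ← inv_mul_cancel c, ← mul_assoc, ← hk, one_mul]
    simpa using h2
  · rw [zpow_add, zpow_mul, zpow_two, hy2, one_zpow, one_mul, zpow_one] at hk
    exact hk.symm

/-- The counting argument. -/
theorem card_le_of_outer {N A C : Subgroup G} {d : ℕ} (hA : Loc N A 2) (hC : Loc N C 2) (hAC : A ≠ C)
    (hd : (A ⊓ C).relIndex A = d) (hd1 : 1 ≤ d)
    (hmin : ∀ K : Subgroup G, K ≤ OO 2 A ⊓ N → K ≠ ⊥ → A ≤ normalizer (K : Set G) → K = OO 2 A ⊓ N)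
    (hcomm : ∀ x ∈ OO 2 A ⊓ N, ∀ y ∈ OO 2 A, x * y = y * x) (hexp : ∀ x ∈ OO 2 A ⊓ N, x ^ 2 = 1)
    (hself : ∀ g ∈ N, (∀ k ∈ OO 2 A ⊓ N, g * k = k * g) → g ∈ OO 2 A ⊓ N)
    {y : G} (hyA : y ∈ OO 2 A) (hy2 : y ^ 2 = 1) (hy1 : y ≠ 1) (hyC : C ≤ normalizer (zpowers y : Set G)) :
    Nat.card ↥A ≤ d.factorial * (2 ^ (d - 1) * N.index) := by
  classical
  have hN := hA.normal
  have hyy : y * y = 1 := by rw [← sq]; exact hy2
  have hyA' : y ∈ A := OO_le 2 A hyA
  have hcy : ∀ c ∈ C, c * y * c⁻¹ = y := fun c hc => comm_of_norm hyy hy1 hyC hc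
  have hyi : y⁻¹ = y := inv_eq_of_mul_eq_one_left hyy
  -- the conjugates
  let f : ↥A → G := fun a => (a : G) * y * (a : G)⁻¹
  have hf2 : ∀ a, f a * f a = 1 := by
    intro a
    change (a : G) * y * (a : G)⁻¹ * ((a : G) * y * (a : G)⁻¹) = 1
    calc _ = (a : G) * (y * y) * (a : G)⁻¹ := by group
      _ = 1 := by rw [hyy]; group
  let T : Set G := Set.range f
  have hTfin : T.Finite := Set.toFinite _
  have hTd : T.ncard ≤ d := by
    let q : (↥A ⧸ (A ⊓ C).subgroupOf A) → G := Quotient.lift f (by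
      intro a b hab
      have h1 : a⁻¹ * b ∈ (A ⊓ C).subgroupOf A := QuotientGroup.leftRel_apply.mp hab
      have h2 : (a : G)⁻¹ * (b : G) ∈ C := h1.2
      have h3 := hcy _ h2
      change (a : G) * y * (a : G)⁻¹ = (b : G) * y * (b : G)⁻¹
      have h4 : (b : G) * y * (b : G)⁻¹ = (a : G) * ((a : G)⁻¹ * (b : G) * y * ((a : G)⁻¹ * (b : G))⁻¹) * (a : G)⁻¹ := by group
      rw [h4, h3])
    have h1 : T = Set.range q := by
      ext x
      constructor
      · rintro ⟨a, rfl⟩
        exact ⟨(a : ↥A ⧸ (A ⊓ C).subgroupOf A), rfl⟩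
      · rintro ⟨a, rfl⟩
        induction a using QuotientGroup.induction_on with
        | H a => exact ⟨a, rfl⟩
    rw [h1, ← hd, Subgroup.relIndex, Subgroup.index, ← Set.image_univ]
    refine (Set.ncard_image_le (Set.toFinite _)).trans ?_
    rw [Set.ncard_univ]
  have hyT : y ∈ T := ⟨1, by change ((1 : ↥A) : G) * y * ((1 : ↥A) : G)⁻¹ = y; simp⟩
  have hTconj : ∀ a : ↥A, ∀ t ∈ T, (a : G) * t * (a : G)⁻¹ ∈ T := by
    rintro a _ ⟨b, rfl⟩
    refine ⟨a * b, ?_⟩
    change ((a * b : ↥A) : G) * y * ((a * b : ↥A) : G)⁻¹ = (a : G) * ((b : G) * y * (b : G)⁻¹) * (a : G)⁻¹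
    rw [Subgroup.coe_mul]
    group
  have hTO : ∀ t ∈ T, t ∈ OO 2 A := by
    rintro _ ⟨a, rfl⟩
    exact conj_mem_OO a.2 hyA
  -- `y t ∈ N`
  have hTN : ∀ t ∈ T, y * t ∈ N := by
    rintro _ ⟨a, rfl⟩
    obtain ⟨x, hx, c, hc, hxc⟩ := hC.exists_mul (a : G)
    change y * ((a : G) * y * (a : G)⁻¹) ∈ N
    rw [hxc]
    have h1 : y * (x * c * y * (x * c)⁻¹) = (y * x * y⁻¹) * (y * (c * y * c⁻¹)) * x⁻¹ := by group
    rw [h1, hcy c hc, hyy, mul_one]
    exact N.mul_mem (hN.conj_mem x hx y) (N.inv_mem hx)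
  have hTE : ∀ t ∈ T, y * t ∈ OO 2 A ⊓ N := fun t ht => ⟨(OO 2 A).mul_mem hyA (hTO t ht), hTN t ht⟩
  -- the generators
  let T' : Finset G := (hTfin.toFinset.erase y).image fun t => y * t
  have hT'card : T'.card ≤ d - 1 := by
    refine Finset.card_image_le.trans ?_
    rw [Finset.card_erase_of_mem (hTfin.mem_toFinset.mpr hyT)]
    have : hTfin.toFinset.card = T.ncard := (Set.ncard_eq_toFinset_card T hTfin).symm
    omega
  have hT'E : ∀ t ∈ T', t ∈ OO 2 A ⊓ N := by
    intro t ht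
    obtain ⟨s, hs, rfl⟩ := Finset.mem_image.mp ht
    exact hTE s (hTfin.mem_toFinset.mp (Finset.mem_of_mem_erase hs))
  set W : Subgroup G := closure (T' : Set G) with hW
  have hWE : W ≤ OO 2 A ⊓ N := (closure_le _).mpr hT'E
  have hWmem : ∀ t ∈ T, y * t ∈ W := by
    intro t ht
    by_cases hty : t = y
    · rw [hty, hyy]
      exact W.one_mem
    · apply Subgroup.subset_closure
      exact Finset.mem_coe.mpr (Finset.mem_image.mpr ⟨t, Finset.mem_erase.mpr ⟨hty, hTfin.mem_toFinset.mpr ht⟩, rfl⟩)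
  have hWA : A ≤ normalizer (W : Set G) := by
    apply le_normalizer_of_conj
    intro b hb x hx
    rw [hW] at hx
    induction hx using closure_induction with
    | mem x hx =>
      obtain ⟨t, ht, rfl⟩ := Finset.mem_image.mp (Finset.mem_coe.mp hx)
      have htT : t ∈ T := hTfin.mem_toFinset.mp (Finset.mem_of_mem_erase ht)
      have h1 : b * y * b⁻¹ ∈ T := hTconj ⟨b, hb⟩ y hyT
      have h2 : b * t * b⁻¹ ∈ T := hTconj ⟨b, hb⟩ t htT
      have h3 := W.mul_mem (W.inv_mem (hWmem _ h1)) (hWmem _ h2)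
      have h4 : (y * (b * y * b⁻¹))⁻¹ * (y * (b * t * b⁻¹)) = b * y⁻¹ * t * b⁻¹ := by group
      rw [h4, hyi] at h3
      change b * (y * t) * b⁻¹ ∈ W
      rwa [← mul_assoc]
    | one =>
      rw [mul_one, mul_inv_cancel]
      exact W.one_mem
    | mul x z _ _ hx hz =>
      have : b * (x * z) * b⁻¹ = (b * x * b⁻¹) * (b * z * b⁻¹) := by group
      rw [this]
      exact W.mul_mem hx hz
    | inv x _ hx =>
      have : b * x⁻¹ * b⁻¹ = (b * x * b⁻¹)⁻¹ := by group
      rw [this]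
      exact W.inv_mem hx
  have hW1 : W ≠ ⊥ := by
    intro h1
    apply hAC
    have hyA2 : ∀ a ∈ A, a * y * a⁻¹ = y := by
      intro a ha
      have h2 := hWmem (a * y * a⁻¹) ⟨⟨a, ha⟩, rfl⟩
      rw [h1, mem_bot] at h2
      have h3 := eq_inv_of_mul_eq_one_right h2
      rw [h3, hyi]
    have hne : zpowers y ≠ ⊥ := by
      rw [Ne, zpowers_eq_bot]
      exact hy1
    refine hA.eq_of_both hC hne (hA.not_N_le_of_le ?_) ?_ hyC
    · rw [zpowers_le]
      exact hyA'
    · apply le_normalizer_of_conj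
      intro a ha x hx
      obtain ⟨k, rfl⟩ := mem_zpowers_iff.mp hx
      have h2 : a * y ^ k * a⁻¹ = (a * y * a⁻¹) ^ k := by rw [conj_zpow]
      rw [h2, hyA2 a ha]
      exact zpow_mem (mem_zpowers y) k
  have hWeq : W = OO 2 A ⊓ N := hmin W hWE hW1 hWA
  have hEcard : Nat.card ↥(OO 2 A ⊓ N : Subgroup G) ≤ 2 ^ (d - 1) := by
    rw [← hWeq]
    refine (card_closure_le T' ?_ ?_).trans (Nat.pow_le_pow_right (by norm_num) hT'card)
    · intro a ha
      have := hexp a (hT'E a ha)
      rwa [sq] at this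
    · intro a ha b hb
      exact hcomm a (hT'E a ha) b (hT'E b hb).1
  -- the action on the conjugates
  let ρ : ↥A →* Equiv.Perm ↥T :=
    { toFun := fun a =>
        { toFun := fun t => ⟨(a : G) * t * (a : G)⁻¹, hTconj a t t.2⟩
          invFun := fun t => ⟨(a : G)⁻¹ * t * (a : G), by
            have := hTconj a⁻¹ t t.2
            rwa [InvMemClass.coe_inv, inv_inv] at this⟩
          left_inv := fun t => by
            apply Subtype.ext
            change (a : G)⁻¹ * ((a : G) * t * (a : G)⁻¹) * (a : G) = t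
            group
          right_inv := fun t => by
            apply Subtype.ext
            change (a : G) * ((a : G)⁻¹ * t * (a : G)) * (a : G)⁻¹ = t
            group }
      map_one' := by
        ext t
        change ((1 : ↥A) : G) * t * ((1 : ↥A) : G)⁻¹ = t
        simp
      map_mul' := fun a b => by
        ext t
        change ((a * b : ↥A) : G) * t * ((a * b : ↥A) : G)⁻¹ = (a : G) * ((b : G) * t * (b : G)⁻¹) * (a : G)⁻¹
        rw [Subgroup.coe_mul]
        group }
  have hρ : ∀ a : ↥A, a ∈ ρ.ker → ∀ t ∈ T, (a : G) * t = t * (a : G) := by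
    intro a ha t ht
    have h1 : ρ a = 1 := ha
    have h2 := congrArg (fun e : Equiv.Perm ↥T => ((e ⟨t, ht⟩ : ↥T) : G)) h1
    have h3 : (a : G) * t * (a : G)⁻¹ = t := h2
    rw [mul_inv_eq_iff_eq_mul] at h3
    exact h3
  have hTfin' : Finite ↥T := hTfin.to_subtype
  have hperm : Nat.card (Equiv.Perm ↥T) ≤ d.factorial := by
    rw [Nat.card_perm, Nat.card_coe_set_eq]
    exact Nat.factorial_le hTd
  have hcardA : Nat.card ↥A ≤ d.factorial * Nat.card ↥ρ.ker := by
    rw [← Subgroup.card_mul_index ρ.ker, mul_comm]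
    apply Nat.mul_le_mul_right
    rw [Subgroup.index_ker]
    exact (Subgroup.card_le_card_group _).trans hperm
  refine hcardA.trans (Nat.mul_le_mul_left _ ?_)
  -- the kernel
  set K : Subgroup G := ρ.ker.map A.subtype with hK
  have hKcard : Nat.card ↥ρ.ker = Nat.card ↥K := (card_map_of_injective A.subtype_injective).symm
  have hKN : K ⊓ N ≤ OO 2 A ⊓ N := by
    rintro _ ⟨⟨k, hk, rfl⟩, hkN⟩
    apply hself _ hkN
    intro x hx
    rw [← hWeq, hW] at hx
    induction hx using closure_induction with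
    | mem x hx =>
      obtain ⟨t, ht, rfl⟩ := Finset.mem_image.mp (Finset.mem_coe.mp hx)
      have htT : t ∈ T := hTfin.mem_toFinset.mp (Finset.mem_of_mem_erase ht)
      have h1 := hρ k hk y hyT
      have h2 := hρ k hk t htT
      change (k : G) * (y * t) = y * t * (k : G)
      rw [← mul_assoc, h1, mul_assoc, h2, mul_assoc]
    | one => rw [mul_one, one_mul]
    | mul x z _ _ hx hz => rw [← mul_assoc, hx, mul_assoc, hz, mul_assoc]
    | inv x _ hx =>
      have : Commute (A.subtype k) x := hx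
      exact this.inv_right
  have h1 : Nat.card ↥(K ⊓ N : Subgroup G) * (K ⊓ N).relIndex K = Nat.card ↥K := card_mul_relIndex' inf_le_left
  rw [hKcard, ← h1]
  apply Nat.mul_le_mul ((card_le_of_le hKN).trans hEcard)
  rw [inf_relIndex_left]
  exact Nat.le_of_dvd (Nat.pos_of_ne_zero index_ne_zero_of_finite) (relIndex_dvd_index_of_normal N K)

/-- the numbers -/
theorem numbers {d i : ℕ} (hd : 5 ≤ d) (hi : i ≤ 260000) : d.factorial * (2 ^ (d - 1) * i) ≤ M d := by
  unfold M
  apply Nat.mul_le_mul_left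
  have h24 : 24 ≤ (d - 1).factorial := by
    have : Nat.factorial 4 ≤ (d - 1).factorial := Nat.factorial_le (by omega)
    exact this
  refine le_trans ?_ (Nat.pow_le_pow_left h24 d)
  obtain ⟨e, rfl⟩ : ∃ e, d = e + 5 := ⟨d - 5, by omega⟩
  rw [show e + 5 - 1 = e + 4 by omega, pow_add, pow_add]
  have h1 : 2 ^ e ≤ 24 ^ e := Nat.pow_le_pow_left (by norm_num) e
  calc 2 ^ e * 2 ^ 4 * i ≤ 24 ^ e * 2 ^ 4 * 260000 := Nat.mul_le_mul (Nat.mul_le_mul_right _ h1) hi
    _ = 24 ^ e * (2 ^ 4 * 260000) := by rw [mul_assoc]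
    _ ≤ 24 ^ e * 24 ^ 5 := Nat.mul_le_mul_left _ (by norm_num)

end Cfsg.Agent.H87.TW
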