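import Cfsg.Agent.H607.TW.Defs2

/-!
# S3694, T12c (helper87): an element acting diagonally on `K` acts as an element of `K`
-/

set_option autoImplicit false

namespace Cfsg.Agent.H87.TW

open Subgroup Cfsg.Agent.H607.TW

variable {F : Type} [Field F] {n : ℕ}

theorem smul_unit_inj (hn : 0 < n) (g : Matrix.GeneralLinearGroup (Fin n) F) {c c' : F}
    (h : c • (g : Matrix (Fin n) (Fin n) F) = c' • (g : Matrix (Fin n) (Fin n) F)) : c = c' := by
  have : Nonempty (Fin n) := ⟨⟨0, hn⟩⟩
  exact smul_left_injective F (Units.ne_zero g) h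

/-- `g` acts diagonally on `K` -/
def Diag (K : Subgroup (Matrix.GeneralLinearGroup (Fin n) F)) (g : Matrix.GeneralLinearGroup (Fin n) F) : Prop :=
  ∀ k ∈ K, ∃ c : F, (g : Matrix (Fin n) (Fin n) F) * (k : Matrix (Fin n) (Fin n) F) =
      c • ((k : Matrix (Fin n) (Fin n) F) * (g : Matrix (Fin n) (Fin n) F))

open Classical in
/-- the character of `K` given by an element acting diagonally, as a function -/
noncomputable def lamf {K : Subgroup (Matrix.GeneralLinearGroup (Fin n) F)} {g : Matrix.GeneralLinearGroup (Fin n) F}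
    (hg : Diag K g) (k : Matrix.GeneralLinearGroup (Fin n) F) : F :=
  if hk : k ∈ K then Classical.choose (hg k hk) else 1

theorem lamf_spec {K : Subgroup (Matrix.GeneralLinearGroup (Fin n) F)} {g : Matrix.GeneralLinearGroup (Fin n) F}
    (hg : Diag K g) {k : Matrix.GeneralLinearGroup (Fin n) F} (hk : k ∈ K) :
    (g : Matrix (Fin n) (Fin n) F) * (k : Matrix (Fin n) (Fin n) F) =
      lamf hg k • ((k : Matrix (Fin n) (Fin n) F) * (g : Matrix (Fin n) (Fin n) F)) := by
  unfold lamf
  rw [dif_pos hk]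
  exact Classical.choose_spec (hg k hk)

/-- the character of `K` given by an element acting diagonally -/
noncomputable def lam (hn : 0 < n) {K : Subgroup (Matrix.GeneralLinearGroup (Fin n) F)} {g : Matrix.GeneralLinearGroup (Fin n) F}
    (hg : Diag K g) : ↥K →* F where
  toFun k := lamf hg (k : Matrix.GeneralLinearGroup (Fin n) F)
  map_one' := by
    have h := lamf_spec hg K.one_mem
    apply smul_unit_inj hn g
    rw [Units.val_one, mul_one, one_mul] at h
    rw [one_smul, OneMemClass.coe_one]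
    exact h.symm
  map_mul' k l := by
    have h := lamf_spec hg (K.mul_mem k.2 l.2)
    have hk := lamf_spec hg k.2
    have hl := lamf_spec hg l.2
    apply smul_unit_inj hn ((k : Matrix.GeneralLinearGroup (Fin n) F) * (l : Matrix.GeneralLinearGroup (Fin n) F) * g)
    rw [Subgroup.coe_mul]
    rw [Units.val_mul, Units.val_mul]
    rw [Units.val_mul] at h
    rw [← h, ← mul_assoc, hk, Matrix.smul_mul, mul_assoc, hl, Matrix.mul_smul, smul_smul, mul_assoc]

theorem lam_apply (hn : 0 < n) {K : Subgroup (Matrix.GeneralLinearGroup (Fin n) F)} {g : Matrix.GeneralLinearGroup (Fin n) F}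
    (hg : Diag K g) (k : ↥K) : lam hn hg k = lamf hg (k : Matrix.GeneralLinearGroup (Fin n) F) := rfl

/-- the same character twice: the quotient commutes with `K` -/
theorem comm_of_lam_eq {a b k : Matrix.GeneralLinearGroup (Fin n) F} {c : F}
    (h3 : (a : Matrix (Fin n) (Fin n) F) * (k : Matrix (Fin n) (Fin n) F) =
      c • ((k : Matrix (Fin n) (Fin n) F) * (a : Matrix (Fin n) (Fin n) F)))
    (h4 : (b : Matrix (Fin n) (Fin n) F) * (k : Matrix (Fin n) (Fin n) F) =
      c • ((k : Matrix (Fin n) (Fin n) F) * (b : Matrix (Fin n) (Fin n) F))) : (a⁻¹ * b) * k = k * (a⁻¹ * b) := by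
  apply Units.ext
  have e1 : ((a⁻¹ : Matrix.GeneralLinearGroup (Fin n) F) : Matrix (Fin n) (Fin n) F) * (a : Matrix (Fin n) (Fin n) F) = 1 := by
    rw [← Units.val_mul, inv_mul_cancel, Units.val_one]
  have e2 : (a : Matrix (Fin n) (Fin n) F) * ((a⁻¹ : Matrix.GeneralLinearGroup (Fin n) F) : Matrix (Fin n) (Fin n) F) = 1 := by
    rw [← Units.val_mul, mul_inv_cancel, Units.val_one]
  have h5 : (k : Matrix (Fin n) (Fin n) F) * ((a⁻¹ : Matrix.GeneralLinearGroup (Fin n) F) : Matrix (Fin n) (Fin n) F) =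
      c • (((a⁻¹ : Matrix.GeneralLinearGroup (Fin n) F) : Matrix (Fin n) (Fin n) F) * (k : Matrix (Fin n) (Fin n) F)) := by
    have h6 := congrArg (fun X => ((a⁻¹ : Matrix.GeneralLinearGroup (Fin n) F) : Matrix (Fin n) (Fin n) F) * X *
      ((a⁻¹ : Matrix.GeneralLinearGroup (Fin n) F) : Matrix (Fin n) (Fin n) F)) h3
    simp only [Matrix.mul_smul, Matrix.smul_mul] at h6
    rw [← mul_assoc, e1, one_mul, ← mul_assoc, mul_assoc (_ * _) _ _, e2, mul_one] at h6
    exact h6
  rw [Units.val_mul, Units.val_mul, Units.val_mul, Units.val_mul, mul_assoc, h4, ← mul_assoc, h5, Matrix.smul_mul,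
    Matrix.mul_smul, mul_assoc]

theorem tw_diag [Finite F] {K : Subgroup (Matrix.GeneralLinearGroup (Fin n) F)} (hK : Tw K)
    (g : Matrix.GeneralLinearGroup (Fin n) F)
    (hg : ∀ k ∈ K, ∃ c : F, (g : Matrix (Fin n) (Fin n) F) * (k : Matrix (Fin n) (Fin n) F) =
      c • ((k : Matrix (Fin n) (Fin n) F) * (g : Matrix (Fin n) (Fin n) F))) :
    ∃ k₀ ∈ K, ∀ k ∈ K, (k₀⁻¹ * g) * k = k * (k₀⁻¹ * g) := by
  rcases Nat.eq_zero_or_pos n with rfl | hn
  · refine ⟨1, K.one_mem, fun k _ => ?_⟩
    apply Units.ext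
    ext i
    exact i.elim0
  have hfinGL : Finite (Matrix.GeneralLinearGroup (Fin n) F) := by
    have : Finite (Matrix (Fin n) (Fin n) F) := inferInstanceAs (Finite (Fin n → Fin n → F))
    infer_instance
  -- the characters are trivial on the centre
  have hcen : ∀ (x : Matrix.GeneralLinearGroup (Fin n) F) (hx : Diag K x), ∀ z ∈ center ↥K, lam hn hx z = 1 := by
    intro x hx z hz
    have h1 : ∃ c : F, ((z : Matrix.GeneralLinearGroup (Fin n) F) : Matrix (Fin n) (Fin n) F) = c • 1 := by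
      apply hK.nondeg _ z.2
      intro h hh
      exact congrArg Subtype.val (mem_center_iff.mp hz ⟨h, hh⟩).symm
    obtain ⟨c, hc⟩ := h1
    have h2 := lamf_spec hx z.2
    have h3 : (x : Matrix (Fin n) (Fin n) F) * ((z : Matrix.GeneralLinearGroup (Fin n) F) : Matrix (Fin n) (Fin n) F) =
        ((z : Matrix.GeneralLinearGroup (Fin n) F) : Matrix (Fin n) (Fin n) F) * (x : Matrix (Fin n) (Fin n) F) := by
      rw [hc, Matrix.mul_smul, Matrix.smul_mul, mul_one, one_mul]
    rw [lam_apply]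
    apply smul_unit_inj hn ((z : Matrix.GeneralLinearGroup (Fin n) F) * x)
    rw [Units.val_mul, ← h2, one_smul, h3]
  have hKK : ∀ x : ↥K, Diag K (x : Matrix.GeneralLinearGroup (Fin n) F) := fun x k hk => hK.comm x x.2 k hk
  -- the map `x ↦ χ_x` on representatives
  let Φ : (↥K ⧸ center ↥K) → ((↥K ⧸ center ↥K) →* F) := fun q =>
    QuotientGroup.lift (center ↥K) (lam hn (hKK q.out)) (hcen _ (hKK q.out))
  have hΦ : Function.Injective Φ := by
    intro q q' h
    have h1 : ∀ k : ↥K, lam hn (hKK q.out) k = lam hn (hKK q'.out) k := fun k => DFunLike.congr_fun h (QuotientGroup.mk k)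
    have h2 : (q.out : ↥K)⁻¹ * (q'.out : ↥K) ∈ center ↥K := by
      rw [mem_center_iff]
      intro k
      apply Subtype.ext
      have h3 := lamf_spec (hKK q.out) k.2
      have h4 := lamf_spec (hKK q'.out) k.2
      have h5 : lamf (hKK q.out) (k : Matrix.GeneralLinearGroup (Fin n) F) = lamf (hKK q'.out) k := h1 k
      rw [← h5] at h4
      exact (comm_of_lam_eq h3 h4).symm
    have h3 : (QuotientGroup.mk (q.out : ↥K) : ↥K ⧸ center ↥K) = QuotientGroup.mk (q'.out : ↥K) := QuotientGroup.eq.mpr h2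
    rwa [QuotientGroup.out_eq', QuotientGroup.out_eq'] at h3
  have hfinH : Finite ((↥K ⧸ center ↥K) →* F) := DFunLike.finite _
  have hcard : Nat.card ((↥K ⧸ center ↥K) →* F) ≤ Nat.card (↥K ⧸ center ↥K) := by
    have := Fintype.ofFinite (↥K ⧸ center ↥K)
    have := Fintype.ofFinite ((↥K ⧸ center ↥K) →* F)
    have h1 := (linearIndependent_monoidHom (↥K ⧸ center ↥K) F).fintype_card_le_finrank
    rwa [Module.finrank_fintype_fun_eq_card, ← Nat.card_eq_fintype_card, ← Nat.card_eq_fintype_card] at h1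
  obtain ⟨q, hq⟩ := (hΦ.bijective_of_nat_card_le hcard).2 (QuotientGroup.lift (center ↥K) (lam hn (g := g) hg) (hcen g hg))
  refine ⟨((q.out : ↥K) : Matrix.GeneralLinearGroup (Fin n) F), (q.out : ↥K).2, fun k hk => ?_⟩
  have h1 : lam hn (hKK q.out) ⟨k, hk⟩ = lam hn (g := g) hg ⟨k, hk⟩ := DFunLike.congr_fun hq (QuotientGroup.mk (⟨k, hk⟩ : ↥K))
  have h3 := lamf_spec (hKK q.out) hk
  have h4 := lamf_spec (g := g) hg hk
  have h5 : lamf (hKK q.out) k = lamf (g := g) hg k := h1
  rw [← h5] at h4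
  exact comm_of_lam_eq h3 h4

end Cfsg.Agent.H87.TW
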