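import Cfsg.Agent.H87.TW.Conj
import Cfsg.Agent.H87.TW.Count
import Cfsg.Agent.H87.TW.Diag

/-!
# S3694, T16: the extraspecial case, final bound (helper87)

`end_extra_of`: `|A| ≤ M d` in the extraspecial case. The hypothesis `houter` is `outer`.
-/

set_option autoImplicit false

namespace Cfsg.Agent.H87.TW

open Subgroup Cfsg.Agent.H607.TW

universe u

variable {G : Type u} [Group G] {N A C A₁ C₁ A₂ C₂ : Subgroup G} {r d : ℕ} {F : Type} [Field F] {n : ℕ}
  {S : Type} [Group S] {ι : S →* Matrix.GeneralLinearGroup (Fin n) F} {π : S →* G}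

/-- the statement of T12c -/
def DiagAx (F : Type) [Field F] (n : ℕ) : Prop :=
  ∀ K : Subgroup (Matrix.GeneralLinearGroup (Fin n) F), Tw K → ∀ g : Matrix.GeneralLinearGroup (Fin n) F,
    (∀ k ∈ K, ∃ c : F, (g : Matrix (Fin n) (Fin n) F) * (k : Matrix (Fin n) (Fin n) F) =
      c • ((k : Matrix (Fin n) (Fin n) F) * (g : Matrix (Fin n) (Fin n) F))) →
    ∃ k₀ ∈ K, ∀ k ∈ K, (k₀⁻¹ * g) * k = k * (k₀⁻¹ * g)

/-- `M_n(F)` is not commutative for `n ≥ 2`. -/
theorem not_comm (hn : 2 ≤ n) (h : ∀ x y : Matrix (Fin n) (Fin n) F, x * y = y * x) : False := by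
  have hne : (⟨0, by omega⟩ : Fin n) ≠ ⟨1, by omega⟩ := by
    intro h1
    have := congrArg Fin.val h1
    simp at this
  have h1 := h (Matrix.single ⟨0, by omega⟩ ⟨0, by omega⟩ 1) (Matrix.single ⟨0, by omega⟩ ⟨1, by omega⟩ 1)
  rw [Matrix.single_mul_single_same, Matrix.single_mul_single_of_ne _ _ _ _ hne.symm] at h1
  have h2 := congrFun (congrFun h1 ⟨0, by omega⟩) ⟨1, by omega⟩
  simp [Matrix.single] at h2

theorem ind_one_mul (hn : 2 ≤ n) {B : Matrix.GeneralLinearGroup (Fin n) F} {x : G} (hI : Ind ι π x (tauP B 1)) (s : S) :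
    ∃ s' : S, mt ι s' = (B : Matrix (Fin n) (Fin n) F) * mt ι s *
        ((B⁻¹ : Matrix.GeneralLinearGroup (Fin n) F) : Matrix (Fin n) (Fin n) F) ∧ π s' = x * π s * x⁻¹ := by
  have hval : ∀ y, tauP B (1 : F ≃+* F) y = (B : Matrix (Fin n) (Fin n) F) * y *
      ((B⁻¹ : Matrix.GeneralLinearGroup (Fin n) F) : Matrix (Fin n) (Fin n) F) := by
    intro y
    rw [tauP_apply]
    congr 2
  rcases hI with ⟨_, h2⟩ | ⟨h1, _⟩
  · obtain ⟨s', h3, h4⟩ := h2 s
    exact ⟨s', by rw [h3, hval], h4⟩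
  · exfalso
    have hBB : ((B⁻¹ : Matrix.GeneralLinearGroup (Fin n) F) : Matrix (Fin n) (Fin n) F) * (B : Matrix (Fin n) (Fin n) F) = 1 := by
      rw [← Units.val_mul, inv_mul_cancel, Units.val_one]
    apply not_comm (F := F) hn
    intro y z
    apply (tauP B (1 : F ≃+* F)).injective
    rw [h1 y z, hval y, hval z, hval]
    calc (B : Matrix (Fin n) (Fin n) F) * z * ((B⁻¹ : Matrix.GeneralLinearGroup (Fin n) F) : Matrix (Fin n) (Fin n) F) *
          ((B : Matrix (Fin n) (Fin n) F) * y * ((B⁻¹ : Matrix.GeneralLinearGroup (Fin n) F) : Matrix (Fin n) (Fin n) F)) =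
          (B : Matrix (Fin n) (Fin n) F) * z * (((B⁻¹ : Matrix.GeneralLinearGroup (Fin n) F) : Matrix (Fin n) (Fin n) F) *
          (B : Matrix (Fin n) (Fin n) F)) * y * ((B⁻¹ : Matrix.GeneralLinearGroup (Fin n) F) : Matrix (Fin n) (Fin n) F) := by
            simp only [mul_assoc]
      _ = _ := by rw [hBB, mul_one, mul_assoc (B : Matrix (Fin n) (Fin n) F) z y]

/-- In the extraspecial case an element outside `N` that centralises `A ∩ N` has no `F`-linear lift. -/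
theorem not_ind_one (h : Loc N A r) (hM : Model N ι π) (hX : Extra ι π N A r) (hdiag : DiagAx F n) {x : G} (hxN : x ∉ N)
    (hcen : ∀ y ∈ A ⊓ N, x * y = y * x) (B : Matrix.GeneralLinearGroup (Fin n) F) : ¬ Ind ι π x (tauP B 1) := by
  intro hI
  have hBB : ((B⁻¹ : Matrix.GeneralLinearGroup (Fin n) F) : Matrix (Fin n) (Fin n) F) * (B : Matrix (Fin n) (Fin n) F) = 1 := by
    rw [← Units.val_mul, inv_mul_cancel, Units.val_one]
  have hI' := ind_one_mul hM.two hI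
  -- equal images in `N` differ by scalars
  have hscal : ∀ s t : S, π s = π t → ∃ c : F, mt ι s = c • mt ι t := by
    intro s t hst
    have h1 : π (s * t⁻¹) = 1 := by rw [map_mul, map_inv, hst, mul_inv_cancel]
    obtain ⟨c, hc⟩ := (hM.ker _).mp h1
    refine ⟨c, ?_⟩
    calc mt ι s = mt ι (s * t⁻¹ * t) := by rw [inv_mul_cancel_right]
      _ = mt ι (s * t⁻¹) * mt ι t := mt_mul _ _
      _ = c • mt ι t := by rw [hc, Matrix.smul_mul, one_mul]
  let K : Subgroup (Matrix.GeneralLinearGroup (Fin n) F) := ((OO r A ⊓ N).comap π).map ι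
  have hK : ∀ k, k ∈ K ↔ ∃ s : S, π s ∈ OO r A ⊓ N ∧ ι s = k := fun k => Iff.rfl
  have hTw : Tw K := by
    refine ⟨?_, ?_⟩
    · rintro _ ⟨s, hs, rfl⟩ _ ⟨t, ht, rfl⟩
      have h1 : π (s * t) = π (t * s) := by
        rw [map_mul, map_mul]
        exact hX.comm _ hs _ (show π t ∈ OO r A ⊓ N from ht).1
      obtain ⟨c, hc⟩ := hscal _ _ h1
      rw [mt_mul, mt_mul] at hc
      exact ⟨c, hc⟩
    · rintro _ ⟨s, hs, rfl⟩ hg
      apply hX.scal
      intro t ht
      have := hg (ι t) ⟨t, ht, rfl⟩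
      exact congrArg Units.val this
  have hcond : ∀ k ∈ K, ∃ c : F, (B : Matrix (Fin n) (Fin n) F) * (k : Matrix (Fin n) (Fin n) F) =
      c • ((k : Matrix (Fin n) (Fin n) F) * (B : Matrix (Fin n) (Fin n) F)) := by
    rintro _ ⟨s, hs, rfl⟩
    have hs' : π s ∈ OO r A ⊓ N := hs
    obtain ⟨s', h1, h2⟩ := hI' s
    have h3 : x * π s * x⁻¹ = π s := by
      rw [hcen (π s) ⟨OO_le r A hs'.1, hs'.2⟩, mul_inv_cancel_right]
    rw [h3] at h2
    obtain ⟨c, hc⟩ := hscal _ _ h2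
    refine ⟨c, ?_⟩
    change (B : Matrix (Fin n) (Fin n) F) * mt ι s = c • (mt ι s * (B : Matrix (Fin n) (Fin n) F))
    rw [← Matrix.smul_mul, ← hc, h1, mul_assoc, hBB, mul_one]
  obtain ⟨k₀, ⟨s₀, hs₀, rfl⟩, hk₀⟩ := hdiag K hTw B hcond
  have hs₀' : π s₀ ∈ OO r A ⊓ N := hs₀
  obtain ⟨c, hc⟩ := hX.scal (((ι s₀)⁻¹ * B : Matrix.GeneralLinearGroup (Fin n) F) : Matrix (Fin n) (Fin n) F) (by
    intro s hs
    have := hk₀ (ι s) ⟨s, hs, rfl⟩
    exact congrArg Units.val this)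
  have hB : (B : Matrix (Fin n) (Fin n) F) = c • mt ι s₀ := by
    have h1 : (B : Matrix (Fin n) (Fin n) F) = mt ι s₀ *
        (((ι s₀)⁻¹ * B : Matrix.GeneralLinearGroup (Fin n) F) : Matrix (Fin n) (Fin n) F) := by
      change (B : Matrix (Fin n) (Fin n) F) = ((ι s₀ : Matrix.GeneralLinearGroup (Fin n) F) : Matrix (Fin n) (Fin n) F) * _
      rw [← Units.val_mul, mul_inv_cancel_left]
    rw [h1, hc, Matrix.mul_smul, mul_one]
  -- `x = π s₀`
  apply hxN
  have hx : (π s₀)⁻¹ * x = 1 := by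
    apply h.eq_one_of_comm
    intro y hy
    rw [← hM.range] at hy
    obtain ⟨s, rfl⟩ := hy
    obtain ⟨s', h1, h2⟩ := hI' s
    have h3 : mt ι (s₀ * s) = mt ι (s' * s₀) := by
      rw [mt_mul, mt_mul, h1]
      have h4 : (B : Matrix (Fin n) (Fin n) F) * mt ι s =
          ((B : Matrix (Fin n) (Fin n) F) * mt ι s * ((B⁻¹ : Matrix.GeneralLinearGroup (Fin n) F) : Matrix (Fin n) (Fin n) F)) *
            (B : Matrix (Fin n) (Fin n) F) := by
        rw [mul_assoc (_ * _), hBB, mul_one]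
      have hc0 : c ≠ 0 := by
        rintro rfl
        rw [zero_smul] at hB
        rw [hB, mul_zero] at hBB
        have : (1 : Matrix (Fin n) (Fin n) F) ≠ 0 := by
          have hn := hM.two
          have : Nonempty (Fin n) := ⟨⟨0, by omega⟩⟩
          exact one_ne_zero
        exact this hBB.symm
      set D := (B : Matrix (Fin n) (Fin n) F) * mt ι s * ((B⁻¹ : Matrix.GeneralLinearGroup (Fin n) F) : Matrix (Fin n) (Fin n) F)
        with hD
      rw [hB, Matrix.smul_mul, Matrix.mul_smul] at h4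
      exact smul_right_injective _ hc0 h4
    have h5 := mt_inj hM.inj h3
    have h6 : π s₀ * π s = x * π s * x⁻¹ * π s₀ := by rw [← h2, ← map_mul, h5, map_mul]
    have h7 : x * π s * x⁻¹ = π s₀ * π s * (π s₀)⁻¹ := by rw [h6, mul_inv_cancel_right]
    have h8 : x * π s = π s₀ * π s * (π s₀)⁻¹ * x := by rw [← h7, inv_mul_cancel_right]
    rw [mul_assoc, h8]
    group
  have : x = π s₀ := by
    rw [inv_mul_eq_one] at hx
    exact hx.symm
  rw [this]
  exact hs₀'.2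

/-- `A₂ ∩ N = 1` -/
theorem A₂_inf [Finite G] (h : Sit N A C A₁ C₁ A₂ C₂ r d) (hX : Extra ι π N A r) : A₂ ⊓ N = ⊥ := by
  by_contra hne
  obtain ⟨g, hg⟩ := h.conj
  have hN := h.locA.normal
  have h1 : A₂ ⊓ N = OO r A ⊓ N :=
    hX.min _ (inf_le_inf_right _ h.A₂_OO_A) hne (le_normalizer_inf' h.A₂_norm (le_normalizer_of_normal N hN))
  have h2 : A₂ ⊓ N ≤ OO r C ⊓ N := inf_le_inf_right _ h.A₂_OO
  have h3 : OO r C ⊓ N = (OO r A ⊓ N).map (MulAut.conj g).toMonoidHom := by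
    have hO : OO r (A.map (MulAut.conj g).toMonoidHom) = (OO r A).map (MulAut.conj g).toMonoidHom := OO_map r A (MulAut.conj g)
    rw [hg, map_inf_conj hN, hO]
  have h4 : OO r A ⊓ N = OO r C ⊓ N := by
    apply eq_of_le_of_card_ge
    · rw [← h1]
      exact h2
    · rw [h3, card_map_of_injective (MulAut.conj g).injective]
  refine h.false_of_both' hX.ne (inf_le_left.trans (OO_le r A)) h.locA.norm_OO_inf ?_
  rw [h4]
  exact h.locC.norm_OO_inf

theorem diagAx [Finite F] : DiagAx F n := fun _ hK g hg => tw_diag hK g hg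

/-- **T16.** (`houter` is `outer`) -/
theorem end_extra_of [Finite G] [Finite F]
    (houter : ∀ (A' K : Subgroup G), Loc N A' r → K ≤ OO r A' → A' ≤ normalizer (K : Set G) → K ≠ ⊥ → K ⊓ N = ⊥ →
      ∃ x ∈ K, x ^ r = 1 ∧ x ≠ 1 ∧ A' ≤ normalizer (zpowers x : Set G) ∧ (∀ y ∈ A' ⊓ N, x * y = y * x) ∧
        (∀ y ∈ N, x * y = y * x → y ∈ A'))
    (h : Sit N A C A₁ C₁ A₂ C₂ r d) (hM : Model N ι π) (hX : Extra ι π N A r)
    (hidx : N.index ≤ 2 * Nat.card (F ≃+* F) * Nat.card π.ker)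
    (hout : ∀ (A' : Subgroup G) (x : G), Loc N A' r → Extra ι π N A' r → x ^ r = 1 → x ≠ 1 → (∀ y ∈ A' ⊓ N, x * y = y * x) →
      (∀ y ∈ N, x * y = y * x → y ∈ A') → (∀ B : Matrix.GeneralLinearGroup (Fin n) F, ¬ Ind ι π x (tauP B 1)) →
      (r = 2 ∧ Nat.card F ≤ 10 ^ 4) ∨ Nat.card ↥A' ≤ M 5) : Nat.card ↥A ≤ M d := by
  obtain ⟨g, hg⟩ := h.conj
  have hXC : Extra ι π N C r := by
    rw [hg]
    exact Extra.conj h.locA.normal hM hX g
  have hC₂ : C₂ ⊓ N = ⊥ := A₂_inf h.symm hXC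
  obtain ⟨y, hy, hyr, hy1, hyn, hyc, hyl⟩ := houter C C₂ h.locC h.C₂_OO_C h.C₂_norm h.C₂_ne hC₂
  have hyN : y ∉ N := by
    intro h1
    apply hy1
    have : y ∈ C₂ ⊓ N := ⟨hy, h1⟩
    rwa [hC₂, mem_bot] at this
  have hno : ∀ B : Matrix.GeneralLinearGroup (Fin n) F, ¬ Ind ι π y (tauP B 1) := fun B =>
    not_ind_one h.locC hM hXC diagAx hyN hyc B
  rcases hout C y h.locC hXC hyr hy1 hyc hyl hno with ⟨rfl, hF⟩ | h5
  · have h1 := card_le_of_outer h.locA h.locC h.ne h.idx (by have := h.five; omega) hX.min hX.comm hX.exp hX.self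
      (h.C₂_OO hy) hyr hy1 hyn
    refine h1.trans (numbers h.five ?_)
    have h2 : Nat.card π.ker ≤ 10 ^ 4 := by
      have := Fintype.ofFinite F
      exact (card_ker_le hM).trans hF
    have h3 : Nat.card (F ≃+* F) ≤ 13 := by
      by_contra h4
      have h5 : 2 ^ 14 ≤ 2 ^ Nat.card (F ≃+* F) := Nat.pow_le_pow_right (by norm_num) (by omega)
      have h6 := two_pow_card_aut F
      omega
    calc N.index ≤ 2 * Nat.card (F ≃+* F) * Nat.card π.ker := hidx
      _ ≤ 2 * 13 * 10 ^ 4 := Nat.mul_le_mul (Nat.mul_le_mul_left _ h3) h2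
      _ = 260000 := by norm_num
  · rw [h.card_eq] at h5
    exact h.card_le_M h5

end Cfsg.Agent.H87.TW
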