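import Cfsg.Agent.H607.TW.Defs2

/-!
# S3694, T16: lifts and conjugation (helper87)

* `Ind.weak`: what an automorphism or anti-automorphism has in common;
* `Extra.conj`: `Extra` is invariant under conjugation by `G`;
* `not_ind_one`: in the extraspecial case an element outside `N` centralising `A ∩ N` has no `F`-linear lift;
* `card_ker_le`, `two_pow_card_aut`: bounds.
-/

set_option autoImplicit false

namespace Cfsg.Agent.H87.TW

open Subgroup Cfsg.Agent.H607.TW

universe u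

variable {G : Type u} [Group G] {N A : Subgroup G} {r : ℕ} {F : Type} [Field F] {n : ℕ} {S : Type} [Group S]
  {ι : S →* Matrix.GeneralLinearGroup (Fin n) F} {π : S →* G}

theorem mt_mul (s t : S) : mt ι (s * t) = mt ι s * mt ι t := by
  unfold H607.TW.mt
  rw [map_mul, Units.val_mul]

theorem mt_inj (h : Function.Injective ι) {s t : S} (hst : mt ι s = mt ι t) : s = t :=
  h (Units.ext hst)

theorem Ind.weak {g : G} {τ : Matrix (Fin n) (Fin n) F ≃+ Matrix (Fin n) (Fin n) F} (h : Ind ι π g τ) :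
    (∀ x y, τ x * τ y = τ y * τ x ↔ x * y = y * x) ∧
      ∀ s, ∃ s', mt ι s' = τ (mt ι s) ∧ ∀ H : Subgroup G, π s' ∈ H ↔ g * π s * g⁻¹ ∈ H := by
  rcases h with ⟨h1, h2⟩ | ⟨h1, h2⟩
  · refine ⟨fun x y => ?_, fun s => ?_⟩
    · rw [← h1, ← h1, τ.injective.eq_iff]
    · obtain ⟨s', h3, h4⟩ := h2 s
      exact ⟨s', h3, fun H => by rw [h4]⟩
  · refine ⟨fun x y => ?_, fun s => ?_⟩
    · rw [← h1, ← h1, τ.injective.eq_iff, eq_comm]
    · obtain ⟨s', h3, h4⟩ := h2 s
      exact ⟨s', h3, fun H => by rw [← h4, H.inv_mem_iff]⟩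

theorem tauP_smul_one (B : Matrix.GeneralLinearGroup (Fin n) F) (σ : F ≃+* F) (c : F) :
    tauP B σ (c • 1) = σ c • 1 := by
  rw [tauP_apply]
  have h1 : ((c • (1 : Matrix (Fin n) (Fin n) F)).map σ) = σ c • 1 := by
    ext i j
    by_cases hij : i = j
    · simp [hij]
    · simp [hij]
  rw [h1, Matrix.mul_smul, mul_one, Matrix.smul_mul, ← Units.val_mul, mul_inv_cancel, Units.val_one]

theorem tauM_smul_one (B : Matrix.GeneralLinearGroup (Fin n) F) (σ : F ≃+* F) (c : F) :
    tauM B σ (c • 1) = σ c • 1 := by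
  rw [tauM_apply, Matrix.transpose_smul, Matrix.transpose_one]
  exact tauP_smul_one B σ c

/-- membership in a conjugate -/
theorem mem_map_conj {H : Subgroup G} {g x : G} : x ∈ H.map (MulAut.conj g).toMonoidHom ↔ g⁻¹ * x * g ∈ H := by
  constructor
  · rintro ⟨y, hy, rfl⟩
    have : g⁻¹ * (MulAut.conj g).toMonoidHom y * g = y := by
      change g⁻¹ * (g * y * g⁻¹) * g = y
      group
    rwa [this]
  · intro hx
    refine ⟨_, hx, ?_⟩
    change g * (g⁻¹ * x * g) * g⁻¹ = x
    group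

theorem map_inf_conj (hN : N.Normal) (H : Subgroup G) (g : G) :
    (H ⊓ N).map (MulAut.conj g).toMonoidHom = H.map (MulAut.conj g).toMonoidHom ⊓ N := by
  ext x
  rw [mem_inf, mem_map_conj, mem_map_conj, mem_inf]
  refine and_congr_right fun _ => ⟨fun h => ?_, fun h => ?_⟩
  · have := hN.conj_mem _ h g
    have h2 : g * (g⁻¹ * x * g) * g⁻¹ = x := by group
    rwa [h2] at this
  · have := hN.conj_mem _ h g⁻¹
    rwa [inv_inv] at this

theorem norm_map_conj {H K : Subgroup G} (g : G) :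
    H.map (MulAut.conj g).toMonoidHom ≤ normalizer (K.map (MulAut.conj g).toMonoidHom : Set G) ↔ H ≤ normalizer (K : Set G) := by
  constructor
  · intro h
    apply le_normalizer_of_conj
    intro a ha x hx
    have h1 : g * a * g⁻¹ ∈ H.map (MulAut.conj g).toMonoidHom := ⟨a, ha, rfl⟩
    have h2 : g * x * g⁻¹ ∈ K.map (MulAut.conj g).toMonoidHom := ⟨x, hx, rfl⟩
    have h3 := conj_mem_of_norm h h1 h2
    rw [mem_map_conj] at h3
    have h4 : g⁻¹ * (g * a * g⁻¹ * (g * x * g⁻¹) * (g * a * g⁻¹)⁻¹) * g = a * x * a⁻¹ := by group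
    rwa [h4] at h3
  · intro h
    apply le_normalizer_of_conj
    intro a ha x hx
    rw [mem_map_conj] at ha hx ⊢
    have h3 := conj_mem_of_norm h ha hx
    have h4 : g⁻¹ * a * g * (g⁻¹ * x * g) * (g⁻¹ * a * g)⁻¹ = g⁻¹ * (a * x * a⁻¹) * g := by group
    rwa [h4] at h3

/-- `Extra` is invariant under conjugation. -/
theorem Extra.conj (hN : N.Normal) (hM : Model N ι π) (hX : Extra ι π N A r) (g : G) :
    Extra ι π N (A.map (MulAut.conj g).toMonoidHom) r := by
  have hO : OO r (A.map (MulAut.conj g).toMonoidHom) = (OO r A).map (MulAut.conj g).toMonoidHom := OO_map r A (MulAut.conj g)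
  have hE : OO r (A.map (MulAut.conj g).toMonoidHom) ⊓ N = (OO r A ⊓ N).map (MulAut.conj g).toMonoidHom := by
    rw [hO, map_inf_conj hN]
  have hmem : ∀ x, x ∈ OO r (A.map (MulAut.conj g).toMonoidHom) ⊓ N ↔ g⁻¹ * x * g ∈ OO r A ⊓ N := by
    intro x
    rw [hE, mem_map_conj]
  have hlift : ∃ τ : Matrix (Fin n) (Fin n) F ≃+ Matrix (Fin n) (Fin n) F, Ind ι π g τ ∧ ∀ c : F, ∃ c' : F, τ (c • 1) = c' • 1 := by
    obtain ⟨B, σ, h1 | h1⟩ := hM.lift g
    · exact ⟨_, h1, fun c => ⟨_, tauP_smul_one B σ c⟩⟩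
    · exact ⟨_, h1, fun c => ⟨_, tauM_smul_one B σ c⟩⟩
  obtain ⟨τ, hτ, hsc⟩ := hlift
  obtain ⟨hτ1, hτ2⟩ := Ind.weak hτ
  have hcan : ∀ x : G, g⁻¹ * (g * x * g⁻¹) * g = x := fun x => by group
  have hcan2 : ∀ x : G, g * (g⁻¹ * x * g) * g⁻¹ = x := fun x => by group
  refine ⟨?_, ?_, ?_, ?_, ?_, ?_, ?_⟩
  · rw [hE]
    intro h1
    rw [map_eq_bot_iff_of_injective _ (MulAut.conj g).injective] at h1
    exact hX.ne h1
  · intro K hK hK1 hKn
    -- pull back
    have hcomp : ∀ H : Subgroup G, (H.map (MulAut.conj g⁻¹).toMonoidHom).map (MulAut.conj g).toMonoidHom = H := by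
      intro H
      ext x
      rw [mem_map_conj, mem_map_conj, inv_inv, hcan2]
    have h1 : K.map (MulAut.conj g⁻¹).toMonoidHom ≤ OO r A ⊓ N := by
      intro x hx
      rw [mem_map_conj, inv_inv] at hx
      have := (hmem _).mp (hK hx)
      rwa [hcan] at this
    have h2 : K.map (MulAut.conj g⁻¹).toMonoidHom ≠ ⊥ := by
      intro h3
      rw [map_eq_bot_iff_of_injective _ (MulAut.conj g⁻¹).injective] at h3
      exact hK1 h3
    have h3 : A ≤ normalizer (K.map (MulAut.conj g⁻¹).toMonoidHom : Set G) := by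
      rw [← norm_map_conj g, hcomp]
      exact hKn
    have h4 := hX.min _ h1 h2 h3
    rw [hE, ← h4, hcomp]
  · intro x hx y hy
    rw [hmem] at hx
    rw [hO, mem_map_conj] at hy
    have h1 := hX.comm _ hx _ hy
    have h2 : g⁻¹ * x * g * (g⁻¹ * y * g) = g⁻¹ * (x * y) * g := by group
    have h3 : g⁻¹ * y * g * (g⁻¹ * x * g) = g⁻¹ * (y * x) * g := by group
    rw [h2, h3] at h1
    simpa using h1
  · intro x hx
    rw [hmem] at hx
    have h1 := hX.exp _ hx
    have h2 : (g⁻¹ * x * g) ^ r = g⁻¹ * x ^ r * g := by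
      have := conj_pow (i := r) (a := g⁻¹) (b := x)
      rwa [inv_inv] at this
    rw [h2] at h1
    have h3 : g⁻¹ * x ^ r = g⁻¹ := by
      rw [← mul_one (g⁻¹ * x ^ r), ← mul_inv_cancel g, ← mul_assoc, h1, one_mul]
    simpa using h3
  · intro k hk hc
    rw [hmem]
    apply hX.self
    · have := hN.conj_mem _ hk g⁻¹
      rwa [inv_inv] at this
    · intro e he
      have h1 : g * e * g⁻¹ ∈ OO r (A.map (MulAut.conj g).toMonoidHom) ⊓ N := by
        rw [hmem, hcan]
        exact he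
      have h2 := hc _ h1
      calc g⁻¹ * k * g * e = g⁻¹ * (k * (g * e * g⁻¹)) * g := by group
        _ = g⁻¹ * (g * e * g⁻¹ * k) * g := by rw [h2]
        _ = e * (g⁻¹ * k * g) := by group
  · intro x hx
    have h1 : ∀ s : S, π s ∈ OO r A ⊓ N → τ.symm x * mt ι s = mt ι s * τ.symm x := by
      intro s hs
      rw [← hτ1, τ.apply_symm_apply]
      obtain ⟨s', h2, h3⟩ := hτ2 s
      rw [← h2]
      apply hx
      rw [h3, hmem, hcan]
      exact hs
    obtain ⟨c, hc⟩ := hX.scal _ h1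
    obtain ⟨c', hc'⟩ := hsc c
    refine ⟨c', ?_⟩
    rw [← hc', ← hc, τ.apply_symm_apply]
  · obtain ⟨s, t, hs, ht, hst⟩ := hX.nonab
    obtain ⟨s', h1, h2⟩ := hτ2 s
    obtain ⟨t', h3, h4⟩ := hτ2 t
    refine ⟨s', t', ?_, ?_, ?_⟩
    · rw [h2, hmem, hcan]
      exact hs
    · rw [h4, hmem, hcan]
      exact ht
    · intro h5
      apply hst
      apply mt_inj hM.inj
      rw [mt_mul, mt_mul, ← hτ1, ← h1, ← h3, ← mt_mul, ← mt_mul, h5]

theorem card_ker_le [Fintype F] (hM : Model N ι π) : Nat.card π.ker ≤ Nat.card F := by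
  have hn : 0 < n := by have := hM.two; omega
  have hex : ∀ s : π.ker, ∃ c : F, mt ι (s : S) = c • (1 : Matrix (Fin n) (Fin n) F) := fun s =>
    (hM.ker _).mp s.2
  choose f hf using hex
  apply Nat.card_le_card_of_injective f
  intro s t hst
  apply Subtype.ext
  apply mt_inj hM.inj
  rw [hf, hf, hst]

theorem two_pow_card_aut (F : Type*) [Field F] [Finite F] : 2 ^ Nat.card (F ≃+* F) ≤ Nat.card F := by
  have := Fintype.ofFinite F
  obtain ⟨p, hp⟩ := CharP.exists F
  have hpr : Fact p.Prime := ⟨CharP.char_is_prime F p⟩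
  let _ : Algebra (ZMod p) F := ZMod.algebra F p
  let e : (F ≃ₐ[ZMod p] F) ≃ (F ≃+* F) :=
    { toFun := fun f => f.toRingEquiv
      invFun := fun f => AlgEquiv.ofRingEquiv (f := f) (fun x => by
        obtain ⟨k, rfl⟩ := ZMod.natCast_zmod_surjective x
        simp)
      left_inv := fun f => by ext x; rfl
      right_inv := fun f => by ext x; rfl }
  have h1 : Nat.card (F ≃ₐ[ZMod p] F) = Module.finrank (ZMod p) F := IsGalois.card_aut_eq_finrank (ZMod p) F
  rw [← Nat.card_congr e, h1]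
  have h2 : Nat.card F = p ^ Module.finrank (ZMod p) F := by
    rw [Module.natCard_eq_pow_finrank (K := ZMod p), Nat.card_zmod]
  rw [h2]
  exact Nat.pow_le_pow_left hpr.out.two_le _

end Cfsg.Agent.H87.TW
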